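import Cfsg.Agent.H501.PSq.TdC
import Cfsg.Agent.H501.PSq.TdSmall
import Cfsg.Agent.H811.PSq.TwDFourE

/-!
# The row `³D₄` of S4844 (helper501)

`sq_tD4` : `p` odd, `p ^ 2 ∣ |³D₄(q)|`: some character degree is divisible by `p ^ 2`.
-/

set_option autoImplicit false

open Cfsg Cfsg.Lie

namespace Cfsg.Agent.H501.PSq

open Cfsg.Agent.H33

universe u

/-- `5 ≤ p ∣ q ^ 2 + q + 1` -/
theorem td_phi3 {K : Type} [Field K] [Fintype K] {q : ℕ} (hq : IsPrimePow q) (hK : Fintype.card K = q ^ 3) {p : ℕ}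
    (hp : p.Prime) (h5 : 5 ≤ p) (hd : p ∣ q ^ 2 + q + 1) : IM (p ^ 2) ↥(twistedD4 K q) := by
  have h2 := hq.two_le
  by_cases h4 : 4 ≤ q
  · exact td_phi3_big hq h4 hK hp (by omega) hd
  · have h3 : q = 2 ∨ q = 3 := by omega
    rcases h3 with rfl | rfl
    · have e := (Nat.prime_dvd_prime_iff_eq hp (by norm_num : Nat.Prime 7)).1 (by norm_num at hd; exact hd)
      subst e
      exact td_two hK
    · have e := (Nat.prime_dvd_prime_iff_eq hp (by norm_num : Nat.Prime 13)).1 (by norm_num at hd; exact hd)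
      subst e
      exact td_three hK

/-- **The row `³D₄(q)` of S4844.** -/
theorem sq_tD4 {S : Type u} [Group S] [Finite S] (h : Lie.Iso3D4 S) (_hs : IsSimpleGroup S) {p : ℕ} [hp : Fact p.Prime]
    (hp2 : p ≠ 2) (hd : p ^ 2 ∣ Nat.card S) : IM (p ^ 2) S := by
  obtain ⟨K, _, _, q, hq, hK, ⟨e⟩⟩ := h
  refine IM.of_equiv e ?_
  rw [Nat.card_congr e.toEquiv] at hd
  by_cases h3 : p = 3 ∨ ¬ p ∣ q ^ 3 - 1
  · exact td_easy hq hK hp2 hd h3
  push Not at h3
  have h5 : 5 ≤ p := by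
    have h1 := hp.1.two_le
    have h4 : p ≠ 4 := by
      intro h
      have := hp.1
      rw [h] at this
      revert this
      decide
    have := h3.1
    omega
  have h6 : q ^ 3 - 1 = (q - 1) * (q ^ 2 + q + 1) := by
    obtain ⟨k, rfl⟩ := Nat.exists_eq_add_of_le hq.one_lt.le
    rw [show (1 + k) ^ 3 - 1 = k * (k ^ 2 + 3 * k + 3) from Nat.sub_eq_of_eq_add (by ring), Nat.add_sub_cancel_left]
    ring
  rw [h6] at h3
  rcases (hp.1.dvd_mul).1 h3.2 with h | h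
  · exact H811.PSq.td_split hq hK h5 h
  · exact td_phi3 hq hK hp.1 h5 h

end Cfsg.Agent.H501.PSq
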